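import Cfsg.Agent.Lib.ZFact.Setup
import Cfsg.Agent.Lib.GW.Reduction
import Cfsg.Agent.Lib.GW.AutTwo
import Cfsg.Agent.Lib.GW.PGLTwoCent
import Cfsg.Agent.Lib.OutAut.SemilinearOrder
import Cfsg.Agent.Lib.SL2.Dickson.Main
import Cfsg.Agent.Lib.ZFact.PSLBorel
import Cfsg.Agent.Lib.PSLKleinAut.Basic
import Cfsg.Agent.Lib.ClassicalLinear.Card
import Cfsg.Agent.S2119

/-!
# A group with socle `PSL₂(q)` or `A₇`, a regular cyclic subgroup and Z-group stabilisers

The socle `T` is transitive of degree `n = |A|` with Z-group stabiliser `T ∩ B`; then `q` is prime,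
`n = q + 1` and the group is `PGL₂(q)`.
-/

set_option autoImplicit false
set_option linter.style.haveILetI false
open Matrix

namespace CfsgLib.ZFact

open CfsgLib.ReflectionsSpinor.PSL CfsgLib.GW CfsgLib.GW.PGLTwo

universe u

theorem not_isCyclic_psl {K : Type} [Field K] [Fintype K] (h3 : 3 < Fintype.card K) :
    ¬ IsZGroup (ProjectiveSpecialLinearGroup (Fin 2) K) := by
  intro h
  haveI := h
  haveI : Group.IsSolvable (ProjectiveSpecialLinearGroup (Fin 2) K) := inferInstance
  have hc := CfsgLib.PSLKleinAut.commutator_psl2 (F := K) h3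
  haveI : Nontrivial (ProjectiveSpecialLinearGroup (Fin 2) K) := by
    haveI := CfsgLib.PSLKleinAut.isSimpleGroup_psl2 (F := K) h3
    infer_instance
  exact (IsZGroup.commutator_lt (G := ProjectiveSpecialLinearGroup (Fin 2) K)).ne hc

/-- A non-abelian four-group subgroup obstructs being a Z-group. -/
theorem not_isZGroup_of_commuting {G : Type*} [Group G] [Finite G] (x y : G) (hx : orderOf x = 2)
    (hy : orderOf y = 2) (hne : x ≠ y) (hc : x * y = y * x) : ¬ IsZGroup G := by
  intro h
  refine hne (eq_of_commute_of_isZGroup (H := ⊤) ?_ (Subgroup.mem_top x) (Subgroup.mem_top y) hx hy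
    hc)
  haveI := h
  infer_instance

theorem not_isZGroup_alt4 : ¬ IsZGroup (alternatingGroup (Fin 4)) := by
  refine not_isZGroup_of_commuting
    ⟨Equiv.swap 0 1 * Equiv.swap 2 3, Equiv.Perm.mem_alternatingGroup.2 (by decide)⟩
    ⟨Equiv.swap 0 2 * Equiv.swap 1 3, Equiv.Perm.mem_alternatingGroup.2 (by decide)⟩
    (orderOf_eq_prime (by decide) (by decide)) (orderOf_eq_prime (by decide) (by decide))
    (by decide) (by decide)

theorem not_isZGroup_sym4 : ¬ IsZGroup (Equiv.Perm (Fin 4)) := by
  refine not_isZGroup_of_commuting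
    (Equiv.swap 0 1 * Equiv.swap 2 3) (Equiv.swap 0 2 * Equiv.swap 1 3)
    (orderOf_eq_prime (by decide) (by decide)) (orderOf_eq_prime (by decide) (by decide))
    (by decide) (by decide)

theorem not_isZGroup_alt5 : ¬ IsZGroup (alternatingGroup (Fin 5)) := by
  refine not_isZGroup_of_commuting
    ⟨Equiv.swap 0 1 * Equiv.swap 2 3, Equiv.Perm.mem_alternatingGroup.2 (by decide)⟩
    ⟨Equiv.swap 0 2 * Equiv.swap 1 3, Equiv.Perm.mem_alternatingGroup.2 (by decide)⟩
    (orderOf_eq_prime (by decide) (by decide)) (orderOf_eq_prime (by decide) (by decide))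
    (by decide) (by decide)

theorem isZGroup_congr {G H : Type*} [Group G] [Group H] (e : G ≃* H) (h : IsZGroup G) [Finite G] :
    IsZGroup H := by
  haveI := h
  exact IsZGroup.of_surjective (f := e.toMonoidHom) e.surjective

variable {F : Type} [Field F] [Fintype F]

local notation "PSL₂" => ProjectiveSpecialLinearGroup (Fin 2) F
local notation "A₂" => toAutHom (n := 2) (F := F)

/-- The index of a Sylow `p`-subgroup in its normaliser. -/
theorem relIndex_le (p : ℕ) [Fact p.Prime] [CharP F p] (hodd : Odd (Fintype.card F))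
    (P : Sylow p PSL₂) :
    2 * (P : Subgroup PSL₂).relIndex (Subgroup.normalizer ((P : Subgroup PSL₂) : Set PSL₂)) ≤
      Fintype.card F - 1 := by
  set N := Subgroup.normalizer ((P : Subgroup PSL₂) : Set PSL₂) with hN
  obtain ⟨m, -, hq⟩ := FiniteField.card F p
  have hdvd : Fintype.card F ∣ Nat.card (P : Subgroup PSL₂) := by
    have h := CfsgLib.ClassicalLinear.card_PSL_two_of_odd (F := F) rfl hodd
    have hc : Nat.Coprime (Fintype.card F) 2 := Nat.coprime_two_right.2 hodd
    rw [hq]
    refine P.pow_dvd_card_of_pow_dvd_card ?_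
    rw [← hq]
    exact hc.dvd_of_dvd_mul_left ⟨_, h⟩
  have h1 := card_normalizer_le p hodd P
  rw [← hN] at h1
  have h2 : (P : Subgroup PSL₂).relIndex N * Nat.card (P : Subgroup PSL₂) = Nat.card N := by
    rw [Subgroup.relIndex, ← Nat.card_congr (Subgroup.subgroupOfEquivOfLe
      (Subgroup.le_normalizer (H := (P : Subgroup PSL₂)))).toEquiv]
    exact Subgroup.index_mul_card _
  refine Nat.le_of_mul_le_mul_left ?_ (Fintype.card_pos (α := F))
  calc Fintype.card F * (2 * (P : Subgroup PSL₂).relIndex N)
      = 2 * ((P : Subgroup PSL₂).relIndex N * Fintype.card F) := by ring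
    _ ≤ 2 * ((P : Subgroup PSL₂).relIndex N * Nat.card (P : Subgroup PSL₂)) :=
        Nat.mul_le_mul_left 2 (Nat.mul_le_mul_left _ (Nat.le_of_dvd Nat.card_pos hdvd))
    _ ≤ _ := by rw [h2]; exact h1

/-- The bound on Z-subgroups of `PSL₂(q)`, `q > 3` odd. -/
theorem zgroup_bound (hodd : Odd (Fintype.card F)) (h3 : 3 < Fintype.card F) (H : Subgroup PSL₂)
    (hH : IsZGroup H) :
    Nat.card H ≤ Fintype.card F + 1 ∨
      ∃ p, p.Prime ∧ Fintype.card F ∣ p ^ (Fintype.card F) ∧
        2 * Nat.card H ≤ p * (Fintype.card F - 1) := by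
  classical
  obtain ⟨p, hp⟩ := CharP.exists F
  haveI := hp
  obtain ⟨m, hpp, hq⟩ := FiniteField.card F p
  haveI : Fact p.Prime := ⟨hpp⟩
  have hq' : Nat.card F = Fintype.card F := Nat.card_eq_fintype_card
  have hg : Nat.gcd 2 (Nat.card F - 1) = 2 := by
    rw [Nat.gcd_eq_left_iff_dvd, hq']
    obtain ⟨r, hr⟩ := hodd
    exact ⟨r, by omega⟩
  rcases CfsgLib.SL2.Dickson.psl_classification p H with
    ⟨k, hk, hH'⟩ | ⟨P, hP⟩ | ⟨⟨e⟩⟩ | ⟨⟨e⟩⟩ | ⟨⟨e⟩⟩ | ⟨K, iK, iKf, r, hr, hH'⟩
  · left
    rw [hg, hq'] at hk
    have hk' : k ≤ (Fintype.card F + 1) / 2 := by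
      rcases hk with h | h
      · exact Nat.le_of_dvd (by omega) h
      · exact (Nat.le_of_dvd (by omega) h).trans (by omega)
    rcases hH' with ⟨-, h⟩ | ⟨⟨e⟩⟩
    · omega
    · rw [Nat.card_congr e.toEquiv, DihedralGroup.nat_card]
      omega
  · right
    refine ⟨p, hpp, ?_, ?_⟩
    · rw [hq]
      refine pow_dvd_pow p ?_
      calc (m : ℕ) ≤ p ^ (m : ℕ) := (Nat.lt_pow_self hpp.one_lt).le
        _ = _ := rfl
    · -- `H ∩ P` has order at most `p`
      haveI := hH
      set N := Subgroup.normalizer ((P : Subgroup PSL₂) : Set PSL₂) with hN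
      have hPel : ∀ x ∈ (P : Subgroup PSL₂), x ^ p = 1 := fun x hx =>
        pow_eq_one_of_mem_sylow p P hx
      have hint : Nat.card ↥(H ⊓ (P : Subgroup PSL₂)) ≤ p := by
        have hp' : IsPGroup p ↥((H ⊓ (P : Subgroup PSL₂)).subgroupOf H) :=
          (P.isPGroup'.to_le inf_le_right).of_equiv (Subgroup.subgroupOfEquivOfLe inf_le_left).symm
        haveI := hp'.isCyclic_of_isZGroup
        haveI : IsCyclic ↥(H ⊓ (P : Subgroup PSL₂)) :=
          isCyclic_of_surjective _ (Subgroup.subgroupOfEquivOfLe (inf_le_left :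
            H ⊓ (P : Subgroup PSL₂) ≤ H)).surjective
        obtain ⟨g, hg'⟩ := IsCyclic.exists_ofOrder_eq_natCard (α := ↥(H ⊓ (P : Subgroup PSL₂)))
        rw [← hg']
        refine orderOf_le_of_pow_eq_one hpp.pos ?_
        exact Subtype.ext (hPel g g.2.2)
      have hcard : Nat.card H ∣ Nat.card ↥(H ⊓ (P : Subgroup PSL₂)) *
          ((P : Subgroup PSL₂).relIndex N) := by
        have h1 : ((P : Subgroup PSL₂).subgroupOf H).index * Nat.card ((P : Subgroup PSL₂).subgroupOf H)
            = Nat.card H := Subgroup.index_mul_card _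
        rw [← h1, mul_comm]
        refine mul_dvd_mul (dvd_of_eq ?_) ?_
        · rw [← Subgroup.inf_subgroupOf_left]
          exact Nat.card_congr (Subgroup.subgroupOfEquivOfLe inf_le_left).toEquiv
        · have hle : H ≤ N := hP
          haveI : ((P : Subgroup PSL₂).subgroupOf N).Normal := Subgroup.normal_in_normalizer
          have h2 : ((P : Subgroup PSL₂).subgroupOf H).index =
              (((P : Subgroup PSL₂).subgroupOf N)).relIndex (H.subgroupOf N) := by
            rw [Subgroup.relIndex_subgroupOf hle, Subgroup.relIndex]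
          rw [h2]
          exact Subgroup.relIndex_dvd_index_of_normal _ _
      have hN' := relIndex_le p hodd P
      have hle := Nat.le_of_dvd (Nat.mul_pos Nat.card_pos
        (Nat.pos_of_ne_zero Subgroup.index_ne_zero_of_finite)) hcard
      calc 2 * Nat.card H
          ≤ 2 * (p * (P : Subgroup PSL₂).relIndex N) :=
            Nat.mul_le_mul_left 2 (hle.trans (Nat.mul_le_mul_right _ hint))
        _ = p * (2 * (P : Subgroup PSL₂).relIndex N) := by ring
        _ ≤ p * (Fintype.card F - 1) := Nat.mul_le_mul_left _ hN'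
  · exact absurd (isZGroup_congr e hH) not_isZGroup_alt4
  · exact absurd (isZGroup_congr e hH) not_isZGroup_sym4
  · exact absurd (isZGroup_congr e hH) not_isZGroup_alt5
  · letI := iK
    letI := iKf
    haveI : Fact (Nat.Prime 2) := ⟨Nat.prime_two⟩
    have hKodd : Odd (Fintype.card K) := by
      rcases Nat.even_or_odd (Fintype.card K) with h | h
      · exfalso
        rw [hq'] at hr
        rcases Nat.eq_zero_or_pos r with rfl | hr0
        · rw [pow_zero] at hr; omega
        · exact Nat.not_even_iff_odd.2 hodd (hr ▸ h.pow_of_ne_zero hr0.ne')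
      · exact h
    rcases Nat.lt_or_ge 3 (Fintype.card K) with hK | hK
    · exfalso
      rcases hH' with ⟨⟨e⟩⟩ | ⟨⟨e⟩⟩
      · exact not_isCyclic_psl hK (isZGroup_congr e hH)
      · refine not_isCyclic_psl hK ?_
        haveI := isZGroup_congr e hH
        exact IsZGroup.of_injective
          (f := (Matrix.ProjectiveSpecialLinearGroup.toPGL :
            ProjectiveSpecialLinearGroup (Fin 2) K →* ProjGenLinGroup (Fin 2) K))
          Matrix.ProjectiveSpecialLinearGroup.toPGL_injective
    · have hK3 : Fintype.card K = 3 := by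
        have := Fintype.one_lt_card (α := K)
        obtain ⟨l, hl⟩ := hKodd
        omega
      rw [hK3, hq'] at hr
      have hp3 : p = 3 := by
        have h1 : p ∣ 3 ^ r := hr ▸ hq ▸ dvd_pow_self p (PNat.ne_zero m)
        exact (Nat.prime_dvd_prime_iff_eq hpp Nat.prime_three).1 (hpp.dvd_of_dvd_pow h1)
      left
      obtain ⟨e⟩ := nonempty_psl_equiv_alt4 (F := K) hK3
      rcases hH' with ⟨⟨e'⟩⟩ | ⟨⟨e'⟩⟩
      · exact absurd (isZGroup_congr (e'.trans e) hH) not_isZGroup_alt4
      · exfalso
        haveI := isZGroup_congr e' hH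
        refine not_isZGroup_alt4 (isZGroup_congr e ?_)
        exact IsZGroup.of_injective
          (f := (Matrix.ProjectiveSpecialLinearGroup.toPGL :
            ProjectiveSpecialLinearGroup (Fin 2) K →* ProjGenLinGroup (Fin 2) K))
          Matrix.ProjectiveSpecialLinearGroup.toPGL_injective

/-- Automorphisms of `PSL₂(q)` have order at most `q + 1`. -/
theorem orderOf_aut_le (hodd : Odd (Fintype.card F)) (α : MulAut PSL₂) :
    orderOf α ≤ Fintype.card F + 1 := by
  obtain ⟨g, σ, rfl | ⟨h, -⟩⟩ := exists_semiAut (le_refl 2) α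
  swap
  · omega
  have h4 : ¬ (2 = 2 ∧ Fintype.card F = 4) := by
    rintro ⟨-, h⟩
    rw [h] at hodd
    exact absurd hodd (by decide)
  have h := CfsgLib.OutAut.semiAut_order_le (n := 2) (le_refl 2) h4 g σ
  have h1 : 1 < Fintype.card F := Fintype.one_lt_card
  have h2 : Fintype.card F ^ 2 - 1 = (Fintype.card F - 1) * (Fintype.card F + 1) := by
    obtain ⟨t, ht⟩ := Nat.exists_eq_add_of_le h1.le
    rw [ht, Nat.add_sub_cancel_left, show (1 + t) ^ 2 = t * (1 + t + 1) + 1 by ring,
      Nat.add_sub_cancel]
  rw [h2] at h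
  exact Nat.le_of_mul_le_mul_left h (by omega)

/-- Recognition of `PGL₂(p)`. -/
theorem pgl_of_psl {G : Type u} [Group G] [Finite G] (hodd : Odd (Fintype.card F))
    (h3 : 3 < Fintype.card F) (T : Subgroup G) [T.Normal]
    (hC : Subgroup.centralizer (T : Set G) = ⊥) (e : T ≃* PSL₂) {a : G} (H : Subgroup G)
    (hHT : H ≤ T) (hH : IsZGroup H) (hcard : Nat.card T = orderOf a * Nat.card H) :
    (Fintype.card F).Prime ∧ Nonempty (G ≃* (GL (Fin 2) F ⧸ Subgroup.center (GL (Fin 2) F))) := by
  classical
  set q := Fintype.card F with hqdef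
  let f₀ : G →* MulAut T := MulAut.conjNormal
  have hf₀ : Function.Injective f₀ := by
    rw [injective_iff_map_eq_one]
    intro g hg
    have : g ∈ Subgroup.centralizer (T : Set G) := by
      rw [Subgroup.mem_centralizer_iff]
      intro t ht
      have h := congrArg Subtype.val (DFunLike.congr_fun hg ⟨t, ht⟩)
      rw [MulAut.conjNormal_apply] at h
      exact (mul_inv_eq_iff_eq_mul.1 h).symm
    rwa [hC, Subgroup.mem_bot] at this
  let f := (MulAut.congr e).toMonoidHom.comp f₀
  have hf : Function.Injective f := (MulAut.congr e).injective.comp hf₀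
  have hfT : ∀ t : T, f (t : G) = MulAut.conj (e t) := fun t => MulEquiv.ext fun y => by
    show e (MulAut.conjNormal ((t : T) : G) (e.symm y)) = _
    rw [show MulAut.conjNormal ((t : T) : G) (e.symm y) = t * (e.symm y) * t⁻¹ from
      Subtype.ext (by simp)]
    simp
  have hn : orderOf a ≤ q + 1 := by
    rw [← orderOf_injective f hf a]
    exact orderOf_aut_le hodd (f a)
  have hT : 2 * Nat.card T = q * (q ^ 2 - 1) := by
    rw [Nat.card_congr e.toEquiv]
    exact CfsgLib.ClassicalLinear.card_PSL_two_of_odd rfl hodd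
  set H' : Subgroup PSL₂ := (H.subgroupOf T).map e.toMonoidHom with hH'
  have eH : H ≃* H' := (Subgroup.subgroupOfEquivOfLe hHT).symm.trans
    ((H.subgroupOf T).equivMapOfInjective e.toMonoidHom e.injective)
  have hZ' : IsZGroup H' := isZGroup_congr eH hH
  have hcH : Nat.card H' = Nat.card H := (Nat.card_congr eH.toEquiv).symm
  obtain ⟨r, hr⟩ := hodd
  obtain ⟨t, ht⟩ : ∃ t, q = t + 5 := ⟨q - 5, by omega⟩
  have hsq : q * (q ^ 2 - 1) = (q + 1) * (q * (q - 1)) := by
    rw [ht, show t + 5 - 1 = t + 4 by omega,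
      show (t + 5) ^ 2 = (t + 6) * (t + 4) + 1 by ring, Nat.add_sub_cancel]
    ring
  have hlow : (q + 1) * (q * (q - 1)) ≤ (q + 1) * (2 * Nat.card H) := by
    rw [← hsq, ← hT, hcard, mul_left_comm]
    exact Nat.mul_le_mul_right _ hn
  have hlow' : q * (q - 1) ≤ 2 * Nat.card H := Nat.le_of_mul_le_mul_left hlow (by omega)
  rcases zgroup_bound (F := F) ⟨r, hr⟩ h3 H' hZ' with hb | ⟨p, hp, hqp, hb⟩
  · exfalso
    rw [hcH] at hb
    rw [show q - 1 = t + 4 by omega, ht] at hlow'
    rw [← hqdef, ht] at hb
    nlinarith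
  · rw [hcH] at hb
    obtain ⟨i, -, hi⟩ := (Nat.dvd_prime_pow hp).1 hqp
    have hqp' : q ≤ p := Nat.le_of_mul_le_mul_right (hlow'.trans hb) (by omega)
    have hpq : q = p := by
      rcases i with _ | i
      · rw [pow_zero] at hi; omega
      · refine le_antisymm hqp' ?_
        rw [hqdef, hi]
        exact Nat.le_self_pow (Nat.succ_ne_zero i) p
    have hprime : q.Prime := hpq ▸ hp
    refine ⟨hprime, ?_⟩
    have hHeq : 2 * Nat.card H = q * (q - 1) := le_antisymm (hb.trans_eq (by rw [← hqdef, hpq])) hlow'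
    have hna : orderOf a = q + 1 := by
      have h1 : orderOf a * (2 * Nat.card H) = (q + 1) * (q * (q - 1)) := by
        rw [← hsq, ← hT, hcard, mul_left_comm]
      rw [hHeq] at h1
      exact Nat.eq_of_mul_eq_mul_right (Nat.mul_pos (by omega) (by omega)) h1
    have hrange : ∀ g : G, f g ∈ (A₂).range := fun g => by
      obtain ⟨x, σ, hx | ⟨h, -⟩⟩ := exists_semiAut (le_refl 2) (f g)
      swap
      · omega
      rw [ringAut_eq_one_of_prime hprime σ] at hx
      exact ⟨x, hx.symm⟩
    have hnin : f a ∉ innG F := by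
      rintro ⟨b, hb'⟩
      have hbo : orderOf b = q + 1 := by
        rw [← hna, ← orderOf_injective f hf a, ← hb']
        refine (orderOf_injective _ ?_ b).symm
        intro x y hxy
        have h1 : f ((e.symm x : T) : G) = f ((e.symm y : T) : G) := by
          rw [hfT, hfT, e.apply_symm_apply, e.apply_symm_apply, hxy]
        exact e.symm.injective (Subtype.ext (hf h1))
      have hz : IsZGroup ↥(Subgroup.zpowers b) := inferInstance
      -- a cyclic subgroup of order `q + 1`
      have hg : Nat.gcd 2 (Nat.card F - 1) = 2 := by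
        rw [Nat.gcd_eq_left_iff_dvd, Nat.card_eq_fintype_card]
        exact ⟨r, by omega⟩
      obtain ⟨c, hc⟩ := CharP.exists F
      haveI := hc
      obtain ⟨mm, hpp, hqc⟩ := FiniteField.card F c
      haveI : Fact c.Prime := ⟨hpp⟩
      have hcard' : Nat.card (Subgroup.zpowers b) = q + 1 := by rw [Nat.card_zpowers, hbo]
      rcases CfsgLib.SL2.Dickson.psl_classification c (Subgroup.zpowers b) with
        ⟨k, hk, hH''⟩ | ⟨P, hP⟩ | ⟨⟨e'⟩⟩ | ⟨⟨e'⟩⟩ | ⟨⟨e'⟩⟩ | ⟨K, iK, iKf, l, hl, hH''⟩
      · rw [hg, Nat.card_eq_fintype_card, ← hqdef] at hk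
        have hk' : k ≤ (q + 1) / 2 := by
          rcases hk with h | h
          · exact Nat.le_of_dvd (by omega) h
          · exact (Nat.le_of_dvd (by omega) h).trans (by omega)
        rcases hH'' with ⟨-, h⟩ | ⟨⟨e'⟩⟩
        · rw [hcard'] at h; omega
        · rcases Nat.lt_or_ge k 3 with h | h
          · have := Nat.card_congr e'.toEquiv
            rw [hcard', DihedralGroup.nat_card] at this
            omega
          · haveI := isCyclic_of_surjective e'.toMonoidHom e'.surjective
            haveI : NeZero k := ⟨by omega⟩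
            exact DihedralGroup.not_isCyclic (n := k) (by omega) inferInstance
      · have h1 := Subgroup.card_dvd_of_le hP
        have h2 : (P : Subgroup PSL₂).relIndex (Subgroup.normalizer ((P : Subgroup PSL₂) : Set PSL₂))
            * Nat.card (P : Subgroup PSL₂) =
            Nat.card (Subgroup.normalizer ((P : Subgroup PSL₂) : Set PSL₂)) := by
          rw [Subgroup.relIndex, ← Nat.card_congr (Subgroup.subgroupOfEquivOfLe
            (Subgroup.le_normalizer (H := (P : Subgroup PSL₂)))).toEquiv]
          exact Subgroup.index_mul_card _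
        obtain ⟨u, hu⟩ := IsPGroup.iff_card.1 P.isPGroup'
        rw [hcard', ← h2, hu] at h1
        have hcq : c = q := by
          have : c ∣ q := hqdef ▸ hqc ▸ dvd_pow_self c (PNat.ne_zero mm)
          exact (Nat.prime_dvd_prime_iff_eq hpp hprime).1 this
        have hcop : Nat.Coprime (q + 1) (c ^ u) := by
          rw [hcq]
          exact Nat.Coprime.pow_right _
            (by rw [Nat.coprime_self_add_left]; exact Nat.coprime_one_left q)
        have h3' := Nat.le_of_dvd (Nat.pos_of_ne_zero Subgroup.index_ne_zero_of_finite)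
          (hcop.dvd_of_dvd_mul_right h1)
        have h4' := relIndex_le c ⟨r, hr⟩ P
        rw [← hqdef, Subgroup.relIndex] at h4'
        omega
      · exact not_isZGroup_alt4 (isZGroup_congr e' hz)
      · exact not_isZGroup_sym4 (isZGroup_congr e' hz)
      · exact not_isZGroup_alt5 (isZGroup_congr e' hz)
      · letI := iK
        letI := iKf
        rw [Nat.card_eq_fintype_card, ← hqdef] at hl
        have hKq : Fintype.card K = q := by
          have h1 : 1 < Fintype.card K := Fintype.one_lt_card
          rcases l with _ | _ | l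
          · rw [pow_zero] at hl; omega
          · simpa using hl
          · exfalso
            rw [← hl, pow_succ] at hprime
            exact Nat.not_prime_mul (Nat.one_lt_pow (Nat.succ_ne_zero l) h1).ne' (by omega) hprime
        rcases hH'' with ⟨⟨e'⟩⟩ | ⟨⟨e'⟩⟩
        · exact not_isCyclic_psl (K := K) (by omega) (isZGroup_congr e' hz)
        · haveI := isZGroup_congr e' hz
          exact not_isCyclic_psl (K := K) (by omega) (IsZGroup.of_injective
            (f := (Matrix.ProjectiveSpecialLinearGroup.toPGL :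
              ProjectiveSpecialLinearGroup (Fin 2) K →* ProjGenLinGroup (Fin 2) K))
            Matrix.ProjectiveSpecialLinearGroup.toPGL_injective)
    have hinn : innG F ≤ f.range := by
      rintro _ ⟨b, rfl⟩
      exact ⟨(e.symm b : G), by rw [hfT, e.apply_symm_apply]⟩
    have hrle : f.range ≤ (A₂).range := by
      rintro _ ⟨g, rfl⟩
      exact hrange g
    have heq : f.range = (A₂).range := by
      apply Subgroup.eq_of_le_of_card_ge hrle
      have hci : Nat.card (innG F) = Nat.card T := by
        have hinj : Function.Injective (fun t : T => (⟨MulAut.conj (e t), ⟨e t, rfl⟩⟩ : innG F)) := by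
          intro x y hxy
          have h1 : f (x : G) = f (y : G) := by
            rw [hfT, hfT]; exact congrArg Subtype.val hxy
          exact Subtype.ext (hf h1)
        have hsur : Function.Surjective
            (fun t : T => (⟨MulAut.conj (e t), ⟨e t, rfl⟩⟩ : innG F)) := by
          rintro ⟨_, b, rfl⟩
          exact ⟨e.symm b, Subtype.ext (by simp)⟩
        exact (Nat.card_congr (Equiv.ofBijective _ ⟨hinj, hsur⟩)).symm
      obtain ⟨w, hw⟩ := Subgroup.card_dvd_of_le hinn
      have hw2 : 2 ≤ w := by
        by_contra hlt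
        rcases Nat.eq_zero_or_pos w with rfl | hpos
        · rw [mul_zero] at hw
          exact Nat.card_pos.ne' hw
        have hw1 : w = 1 := by omega
        rw [hw1, mul_one] at hw
        exact hnin ((Subgroup.eq_of_le_of_card_ge hinn hw.le).ge ⟨a, rfl⟩)
      rw [card_range (h2 := Ring.two_ne_zero fun h => by
          have := (FiniteField.even_card_iff_char_two (F := F)).1 h
          omega), ← hqdef, ← hT, hw, hci, mul_comm (Nat.card T)]
      exact Nat.mul_le_mul_right _ hw2
    exact ⟨(MonoidHom.ofInjective hf).trans ((MulEquiv.subgroupCongr heq).trans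
      ((QuotientGroup.quotientKerEquivRange _).symm.trans
        (QuotientGroup.quotientMulEquivOfEq (toAutHom_ker (le_refl 2)))))⟩

/-- `A₇` does not occur. -/
theorem alt7_false {G : Type u} [Group G] [Finite G] (T : Subgroup G) [T.Normal]
    (hC : Subgroup.centralizer (T : Set G) = ⊥) (e : T ≃* alternatingGroup (Fin 7)) {a : G}
    (ha : Even (orderOf a)) (hcard : orderOf a * (orderOf a - 1) ∣ Nat.card G)
    (h3 : 3 ∣ orderOf a) (hfac : Nat.card G ∣ (orderOf a).factorial) : False := by
  classical
  let f₀ : G →* MulAut T := MulAut.conjNormal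
  have hf₀ : Function.Injective f₀ := by
    rw [injective_iff_map_eq_one]
    intro g hg
    have : g ∈ Subgroup.centralizer (T : Set G) := by
      rw [Subgroup.mem_centralizer_iff]
      intro t ht
      have h := congrArg Subtype.val (DFunLike.congr_fun hg ⟨t, ht⟩)
      rw [MulAut.conjNormal_apply] at h
      exact (mul_inv_eq_iff_eq_mul.1 h).symm
    rwa [hC, Subgroup.mem_bot] at this
  let E : Equiv.Perm (Fin 7) ≃* MulAut (alternatingGroup (Fin 7)) :=
    MulEquiv.ofBijective _ (Cfsg.Agent.S2119.result 7 (by norm_num) (by norm_num))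
  let f : G →* Equiv.Perm (Fin 7) :=
    E.symm.toMonoidHom.comp ((MulAut.congr e).toMonoidHom.comp f₀)
  have hf : Function.Injective f := E.symm.injective.comp ((MulAut.congr e).injective.comp hf₀)
  have hG : Nat.card G ∣ 5040 := by
    have h := Subgroup.card_dvd_of_injective f hf
    rwa [Nat.card_perm, Nat.card_fin] at h
  have h420 : orderOf a ∣ 420 := by
    rw [← orderOf_injective f hf a, ← Equiv.Perm.lcm_cycleType]
    refine Multiset.lcm_dvd.2 fun k hk => ?_
    have h1 : k ≤ 7 := by
      have h := Equiv.Perm.le_card_support_of_mem_cycleType hk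
      exact h.trans ((Finset.card_le_univ _).trans (by simp))
    have h2 := Equiv.Perm.two_le_of_mem_cycleType hk
    interval_cases k <;> norm_num
  have hT : 2520 ∣ Nat.card G := by
    have h : Nat.card T = 2520 := by
      have h2' := two_mul_nat_card_alternatingGroup (α := Fin 7)
      rw [Nat.card_congr e.toEquiv]
      rw [Nat.card_perm, Nat.card_fin,
        show Nat.factorial 7 = 5040 from by norm_num [Nat.factorial]] at h2'
      omega
    exact h ▸ Subgroup.card_subgroup_dvd_card T
  have h7 : 7 ≤ orderOf a := by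
    by_contra h
    have h1 : (2520 : ℕ) ∣ Nat.factorial 6 :=
      (hT.trans hfac).trans (Nat.factorial_dvd_factorial (by omega))
    norm_num [Nat.factorial] at h1
  have hd : orderOf a * (orderOf a - 1) ∣ 5040 := hcard.trans hG
  have hle : orderOf a ≤ 420 := Nat.le_of_dvd (by norm_num) h420
  have h6 : 6 ∣ orderOf a := Nat.Coprime.mul_dvd_of_dvd_of_dvd (by norm_num) (even_iff_two_dvd.1 ha) h3
  obtain ⟨k, hk⟩ := h6
  rw [hk] at hd h420 h7 hle
  have hk' : k ≤ 70 := by omega
  have hk2 : 2 ≤ k := by omega
  interval_cases k <;> revert hd h420 <;> decide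

end CfsgLib.ZFact
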