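import Cfsg.Agent.Lib.ZFact.Small
import Cfsg.Agent.Lib.GWApps.Basic
import Cfsg.Agent.Lib.SectRank.Transfer
import Cfsg.Agent.S0204
import Cfsg.Agent.S0206

/-!
# A simple normal subgroup has dihedral Sylow 2-subgroups

`G` is 2-transitive with Z-group point stabilisers and has a semiregular element of order `2 ^ s`,
the 2-part of the degree, with `s ≥ 1`.
-/

set_option autoImplicit false
set_option linter.style.haveILetI false
open Cfsg

namespace CfsgLib.ZFact

open MulAction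

universe u

variable {G : Type u} [Group G] [Finite G]

/-- A subgroup made of a cyclic group and an inverting involution is dihedral. -/
theorem dihedral_of_inverted {Q : Subgroup G} {c w : G} (hc : c ∈ Q) (hw : w ∈ Q)
    (hwo : orderOf w = 2) (hwc : w ∉ Subgroup.zpowers c) (hinv : w * c * w⁻¹ = c⁻¹)
    (hall : ∀ x ∈ Q, x ∈ Subgroup.zpowers c ∨ w * x ∈ Subgroup.zpowers c) (hc1 : c ≠ 1) :
    Nonempty (Q ≃* DihedralGroup (orderOf c)) := by
  have hw2 : w * w = 1 := by rw [← pow_two]; exact hwo ▸ pow_orderOf_eq_one w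
  have hwi : w⁻¹ = w := inv_eq_of_mul_eq_one_right hw2
  have hy : orderOf (w * c) = 2 := by
    refine orderOf_eq_prime ?_ fun h => hwc ?_
    · rw [pow_two]
      calc w * c * (w * c) = (w * c * w⁻¹) * c := by rw [hwi]; group
        _ = 1 := by rw [hinv, inv_mul_cancel]
    · rw [eq_inv_of_mul_eq_one_left h]
      exact inv_mem (Subgroup.mem_zpowers c)
  have hne : w ≠ w * c := fun h => hc1 (mul_eq_left.1 h.symm)
  have hclos : Subgroup.closure ({w, w * c} : Set G) = Q := by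
    refine le_antisymm ?_ fun x hx => ?_
    · rw [Subgroup.closure_le]
      rintro y (rfl | rfl)
      exacts [hw, mul_mem hw hc]
    have h1 : w ∈ Subgroup.closure ({w, w * c} : Set G) := Subgroup.subset_closure (Or.inl rfl)
    have h2 : c ∈ Subgroup.closure ({w, w * c} : Set G) := by
      have := mul_mem h1 (Subgroup.subset_closure (Or.inr rfl : w * c ∈ ({w, w * c} : Set G)))
      rwa [← mul_assoc, hw2, one_mul] at this
    rcases hall x hx with h | h
    · exact Subgroup.zpowers_le.2 h2 h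
    · have h3 := mul_mem h1 (Subgroup.zpowers_le.2 h2 h)
      rwa [← mul_assoc, hw2, one_mul] at h3
  obtain ⟨e⟩ := Cfsg.Agent.S0206.result w (w * c) hwo hy hne
  rw [show w * (w * c) = c by rw [← mul_assoc, hw2, one_mul]] at e
  exact ⟨(MulEquiv.subgroupCongr hclos).symm.trans e⟩

variable {Ω : Type u} [MulAction G Ω]

theorem exists_sylow_inter (T : Subgroup G) [T.Normal] :
    ∃ (P : Sylow 2 G) (S : Sylow 2 T), (S : Subgroup T) = ((P : Subgroup G) ⊓ T).subgroupOf T := by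
  haveI : Fact (Nat.Prime 2) := ⟨Nat.prime_two⟩
  obtain ⟨S⟩ : Nonempty (Sylow 2 T) := inferInstance
  obtain ⟨P, hP⟩ := (S.isPGroup'.map T.subtype).exists_le_sylow
  refine ⟨P, S, (S.is_maximal' ((P.isPGroup'.to_le inf_le_left).of_equiv
    (Subgroup.subgroupOfEquivOfLe inf_le_right).symm) fun x hx => ?_).symm⟩
  exact Subgroup.mem_subgroupOf.2 ⟨hP ⟨x, hx, rfl⟩, x.2⟩

/-- A nonabelian simple normal subgroup has an involution in `P ⊓ T` outside any cyclic subgroup. -/
theorem exists_involution_not_mem (T : Subgroup G) [IsSimpleGroup T]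
    (hT : ¬ IsMulCommutative T) {P : Subgroup G} (S : Sylow 2 T)
    (hS : (S : Subgroup T) = (P ⊓ T).subgroupOf T) (A : Subgroup G) [IsCyclic A] :
    ∃ w ∈ P ⊓ T, orderOf w = 2 ∧ w ∉ A := by
  classical
  haveI : Fact (Nat.Prime 2) := ⟨Nat.prime_two⟩
  have hnc : ¬ IsCyclic T := fun h => hT (letI := h.commGroup; ⟨⟨mul_comm⟩⟩)
  obtain ⟨E, hE⟩ := Cfsg.Agent.S0204.result hnc
  haveI := hE
  have hE2 : IsPGroup 2 E := IsPGroup.of_card (n := 2) (by rw [IsKleinFour.card_four]; norm_num)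
  obtain ⟨S', hS'⟩ := hE2.exists_le_sylow
  obtain ⟨t, ht⟩ := MulAction.exists_smul_eq T S' S
  have hcard : Nat.card E = 4 := IsKleinFour.card_four
  haveI : Fintype E := Fintype.ofFinite E
  have h3 : ∃ x y : E, x ≠ 1 ∧ y ≠ 1 ∧ x ≠ y := by
    rw [Nat.card_eq_fintype_card] at hcard
    obtain ⟨x, hx⟩ := Fintype.exists_ne_of_one_lt_card (by omega) (1 : E)
    obtain ⟨y, hy⟩ : ∃ y, y ∉ ({1, x} : Finset E) := by
      by_contra hall
      push_neg at hall
      have h := Finset.card_le_card (fun e (_ : e ∈ (Finset.univ : Finset E)) => hall e)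
      have h2 := Finset.card_le_two (a := (1 : E)) (b := x)
      rw [Finset.card_univ] at h
      omega
    simp only [Finset.mem_insert, Finset.mem_singleton, not_or] at hy
    exact ⟨x, y, hx, hy.1, fun h => hy.2 h.symm⟩
  obtain ⟨x, y, hx, hy, hxy⟩ := h3
  let f : E → G := fun e => ((t * (e : T) * t⁻¹ : T) : G)
  have hfo : ∀ e : E, e ≠ 1 → orderOf (f e) = 2 := fun e he => by
    show orderOf (((t * (e : T) * t⁻¹ : T)) : G) = 2
    rw [Subgroup.orderOf_coe, show t * (e : T) * t⁻¹ = MulAut.conj t (e : T) from rfl,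
      MulEquiv.orderOf_eq, Subgroup.orderOf_coe]
    exact orderOf_eq_prime (by rw [pow_two]; exact IsKleinFour.mul_self e) he
  have hfP : ∀ e : E, f e ∈ P ⊓ T := fun e => by
    have h1 : t * (e : T) * t⁻¹ ∈ (S : Subgroup T) := by
      rw [← ht]
      exact ⟨e, hS' e.2, rfl⟩
    rw [hS] at h1
    exact h1
  by_cases hxA : f x ∈ A
  · refine ⟨f y, hfP y, hfo y hy, fun hyA => hxy ?_⟩
    have hc : x * y = y * x := mul_comm_of_exponent_two IsKleinFour.exponent_two x y
    have h := eq_of_commute_of_isZGroup (H := A) inferInstance hxA hyA (hfo x hx) (hfo y hy) (by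
      show ((t * (x : T) * t⁻¹ : T) : G) * ((t * (y : T) * t⁻¹ : T) : G) =
        ((t * (y : T) * t⁻¹ : T) : G) * ((t * (x : T) * t⁻¹ : T) : G)
      rw [← Subgroup.coe_mul, ← Subgroup.coe_mul, conj_mul, conj_mul, ← Subgroup.coe_mul,
        ← Subgroup.coe_mul, hc])
    have h' : t * (x : T) * t⁻¹ = t * (y : T) * t⁻¹ := Subtype.ext h
    exact Subtype.ext (mul_left_cancel (mul_right_cancel h'))
  · exact ⟨f x, hfP x, hfo x hx, hxA⟩

variable [FaithfulSMul G Ω] [Finite Ω]

/-- Thompson transfer: an involution of `P ⊓ T` outside `A` is conjugate into `A`. -/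
theorem exists_conj_mem (T : Subgroup G) [IsSimpleGroup T] (hT : ¬ IsMulCommutative T)
    {P : Subgroup G} (S : Sylow 2 T) (hS : (S : Subgroup T) = (P ⊓ T).subgroupOf T)
    (A : Subgroup G) {t : G} (ht : t ∈ P ⊓ T) (hto : orderOf t = 2) (htA : t ∉ A)
    (hall : ∀ x ∈ P ⊓ T, x ∈ A ∨ x * t ∈ A) :
    ∃ g ∈ T, g * t * g⁻¹ ∈ A ∧ g * t * g⁻¹ ∈ P ⊓ T := by
  classical
  let M : Subgroup (S : Subgroup T) :=
    A.comap ((T.subtype).comp (S : Subgroup T).subtype)
  have hmem : ∀ x : (S : Subgroup T), ((x : T) : G) ∈ P ⊓ T := fun x => by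
    have hx : (x : T) ∈ (P ⊓ T).subgroupOf T := hS ▸ x.2
    exact hx
  have htS : (⟨t, ht.2⟩ : T) ∈ (S : Subgroup T) := by rw [hS]; exact ht
  let tt : (S : Subgroup T) := ⟨⟨t, ht.2⟩, htS⟩
  have hM : M.index = 2 := by
    rw [Subgroup.index_eq_two_iff]
    refine ⟨tt, fun x => ?_⟩
    show Xor' (((x : T) : G) * t ∈ A) (((x : T) : G) ∈ A)
    rcases hall _ (hmem x) with h | h
    · exact Or.inr ⟨h, fun h2 => htA ((mul_mem_cancel_left h).1 h2)⟩
    · exact Or.inl ⟨h, fun h2 => htA ((mul_mem_cancel_left h2).1 h)⟩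
  obtain ⟨a, ha, hmemM⟩ := CfsgLib.SectRank.exists_conj_mem_of_index_two
    (CfsgLib.SectRank.index_ne_two_of_simple hT) S M hM tt (by
      apply Subtype.ext
      show t ^ 2 = 1
      exact hto ▸ pow_orderOf_eq_one t) htA
  exact ⟨(a : T), a.2, hmemM, hmem ⟨_, ha⟩⟩

/-- The socle has dihedral Sylow 2-subgroups, case `s ≥ 2`. -/
theorem hasDihedralSylow_of_two_le (h2 : IsMultiplyPretransitive G Ω 2) (hZ : ZStab G Ω)
    (T : Subgroup G) [T.Normal] [IsSimpleGroup T] (hT : ¬ IsMulCommutative T) {a0 : G} {s : ℕ}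
    (hs : 2 ≤ s) (ha0 : orderOf a0 = 2 ^ s) (hsemi0 : Semiregular Ω a0)
    (hnd : ¬ 2 ^ (s + 1) ∣ Nat.card Ω) (α : Ω) : GW.HasDihedralSylow T := by
  classical
  haveI : Fact (Nat.Prime 2) := ⟨Nat.prime_two⟩
  haveI : IsPretransitive G Ω := isPretransitive_of_is_two_pretransitive (h2 := h2)
  obtain ⟨P, S, hS⟩ := exists_sylow_inter T
  obtain ⟨P0, hP0⟩ := (IsPGroup.of_card (n := s) (by rw [Nat.card_zpowers, ha0]) :
    IsPGroup 2 (Subgroup.zpowers a0)).exists_le_sylow
  obtain ⟨g0, hg0⟩ := MulAction.exists_smul_eq G P0 P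
  set a : G := g0 * a0 * g0⁻¹ with ha'
  have haP : a ∈ (P : Subgroup G) := by
    rw [← hg0]
    exact ⟨a0, hP0 (Subgroup.mem_zpowers a0), rfl⟩
  have ha : orderOf a = 2 ^ s := by
    rw [ha', show g0 * a0 * g0⁻¹ = MulAut.conj g0 a0 from rfl, MulEquiv.orderOf_eq, ha0]
  have hsemi : Semiregular Ω a := hsemi0.conj g0
  obtain ⟨hcard, hgood⟩ := small h2 hZ P a haP s hs ha hsemi hnd
  -- a point with an involution of `P` fixing it
  obtain ⟨w, hwQ, hwo, hwA⟩ := exists_involution_not_mem T hT S hS (Subgroup.zpowers a)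
  have hPA : ¬ (P : Subgroup G) ≤ Subgroup.zpowers a := fun h => hwA (h hwQ.1)
  have h2stab : 2 ∣ Nat.card (stabilizer G α) := by
    by_contra h
    apply hPA
    refine (Subgroup.eq_of_le_of_card_ge (Subgroup.zpowers_le.2 haP) ?_).ge
    rw [Nat.card_zpowers, ha]
    refine (card_le_of_index_bound (P := P) hnd α).trans ?_
    rw [Nat.factorization_eq_zero_of_not_dvd h, pow_zero, mul_one]
  obtain ⟨b0, hb0⟩ := exists_prime_orderOf_dvd_card' 2 h2stab
  obtain ⟨P1, hP1⟩ := (IsPGroup.of_card (n := 1) (by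
      rw [Nat.card_zpowers, ← Subgroup.orderOf_coe] at *; simpa using hb0) :
    IsPGroup 2 (Subgroup.zpowers (b0 : G))).exists_le_sylow
  obtain ⟨g1, hg1⟩ := MulAction.exists_smul_eq G P1 P
  set b : G := g1 * b0 * g1⁻¹ with hbdef
  have hbP : b ∈ (P : Subgroup G) := by
    rw [← hg1]
    exact ⟨b0, hP1 (Subgroup.mem_zpowers _), rfl⟩
  have hb : orderOf b = 2 := by
    rw [hbdef, show g1 * (b0 : G) * g1⁻¹ = MulAut.conj g1 (b0 : G) from rfl, MulEquiv.orderOf_eq,
      Subgroup.orderOf_coe, hb0]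
  have hbfix : b • g1 • α = g1 • α := by
    rw [hbdef, mul_smul, mul_smul, inv_smul_smul, mem_stabilizer_iff.1 b0.2]
  have hrel := hgood b hbP hb _ hbfix
  set z : G := a ^ 2 ^ (s - 1) with hzdef
  have hz : orderOf z = 2 := orderOf_half (by omega) ha
  have hz2 : z ^ 2 = 1 := hz ▸ pow_orderOf_eq_one z
  have hnfix : ∀ i : ℤ, b ≠ a ^ i := by
    intro i h
    have := hsemi i (g1 • α) (by rw [← h]; exact hbfix)
    rw [h, this, orderOf_one] at hb
    omega
  have hdec : ∀ x ∈ (P : Subgroup G), ∃ i : ℤ, x = a ^ i ∨ x = a ^ i * b := by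
    intro x hx
    have hcard' : Nat.card (P : Subgroup G) ≤
        2 ^ s * Nat.card ↥((P : Subgroup G) ⊓ stabilizer G (g1 • α)) := by
      refine hcard.trans ?_
      rw [pow_succ]
      refine Nat.mul_le_mul_left _ ?_
      calc 2 = Nat.card (Subgroup.zpowers b) := by rw [Nat.card_zpowers, hb]
        _ ≤ Nat.card ↥((P : Subgroup G) ⊓ stabilizer G (g1 • α)) :=
          Subgroup.card_le_of_le (Subgroup.zpowers_le.2
            (show b ∈ (P : Subgroup G) ⊓ stabilizer G (g1 • α) from ⟨hbP, hbfix⟩))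
    obtain ⟨i, v, hv, rfl⟩ := decomposition ha hsemi haP hcard' hx
    refine ⟨i, ?_⟩
    by_cases hv1 : v = 1
    · exact Or.inl (by rw [hv1, mul_one])
    right
    congr 1
    have h1 := (card_mul_le ha hsemi haP (g1 • α)).trans hcard
    rw [pow_succ] at h1
    have h3 := Nat.le_of_mul_le_mul_left h1 (by positivity)
    have heq : Subgroup.zpowers b = (P : Subgroup G) ⊓ stabilizer G (g1 • α) :=
      Subgroup.eq_of_le_of_card_ge (Subgroup.zpowers_le.2 ⟨hbP, hbfix⟩)
        (by rw [Nat.card_zpowers, hb]; exact h3)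
    rw [← heq] at hv
    obtain ⟨k, rfl⟩ := Subgroup.mem_zpowers_iff.1 hv
    have hb2 : b ^ (2 : ℤ) = 1 := by exact_mod_cast (hb ▸ pow_orderOf_eq_one b : b ^ 2 = 1)
    rcases Int.even_or_odd k with ⟨r, rfl⟩ | ⟨r, rfl⟩
    · exact absurd (by rw [← two_mul, zpow_mul, hb2, one_zpow]) hv1
    · rw [zpow_add_one, zpow_mul, hb2, one_zpow, one_mul]
  have hbconj : ∀ i : ℤ, b * a ^ i * b⁻¹ = (b * a * b⁻¹) ^ i := fun i => conj_zpow.symm
  have hbinv : b⁻¹ = b :=
    inv_eq_of_mul_eq_one_right (by rw [← pow_two]; exact hb ▸ pow_orderOf_eq_one b)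
  -- `b` is not in the socle
  have hbT : b ∉ T := by
    intro hbT
    obtain ⟨g, -, hgA, -⟩ := exists_conj_mem T hT S hS (Subgroup.zpowers a) ⟨hbP, hbT⟩ hb
      (fun h => by obtain ⟨i, hi⟩ := h; exact hnfix i hi.symm) (fun x hx => by
        obtain ⟨i, rfl | rfl⟩ := hdec x hx.1
        · exact Or.inl ⟨i, rfl⟩
        · right
          rw [mul_assoc, show b * b = 1 by rw [← pow_two]; exact hb ▸ pow_orderOf_eq_one b,
            mul_one]
          exact ⟨i, rfl⟩)
    obtain ⟨i, hi⟩ := hgA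
    have h1 := hsemi i (g • g1 • α) (by
      rw [show a ^ i = g * b * g⁻¹ from hi, mul_smul, mul_smul, inv_smul_smul, hbfix])
    rw [show a ^ i = g * b * g⁻¹ from hi] at h1
    have := congrArg orderOf h1
    rw [show g * b * g⁻¹ = MulAut.conj g b from rfl, MulEquiv.orderOf_eq, hb, orderOf_one] at this
    omega
  obtain ⟨j, rfl | rfl⟩ := hdec w hwQ.1
  · exact absurd ⟨j, rfl⟩ hwA
  have haT : ∀ i : ℤ, a ^ i ∈ T → Even i ∨ b * a * b⁻¹ = a⁻¹ := by
    intro i hi
    rcases Int.even_or_odd i with h | ⟨r, rfl⟩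
    · exact Or.inl h
    exfalso
    apply hbT
    have hat : a ∈ T := by
      have hcop : IsCoprime (2 * r + 1) ((2 : ℤ) ^ s) := IsCoprime.pow_right ⟨1, -r, by ring⟩
      obtain ⟨x, y, hxy⟩ := hcop
      have h4 : a = (a ^ (2 * r + 1)) ^ x := by
        conv_lhs => rw [← zpow_one a, ← hxy]
        rw [zpow_add, mul_comm x, zpow_mul, mul_comm y, zpow_mul,
          show a ^ ((2 : ℤ) ^ s) = 1 from by
            rw [show ((2 : ℤ) ^ s) = ((2 ^ s : ℕ) : ℤ) by push_cast; rfl, zpow_natCast, ← ha,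
              pow_orderOf_eq_one], one_zpow, mul_one]
      rw [h4]
      exact zpow_mem hi _
    have := mul_mem (inv_mem (zpow_mem hat j)) hwQ.2
    rwa [inv_mul_cancel_left] at this
  -- the generator of the cyclic part
  haveI : IsCyclic ↥(((P : Subgroup G) ⊓ T) ⊓ Subgroup.zpowers a) :=
    Subgroup.isCyclic_of_le inf_le_right
  obtain ⟨⟨c, hc⟩, hgen⟩ := IsCyclic.exists_generator
    (α := ↥(((P : Subgroup G) ⊓ T) ⊓ Subgroup.zpowers a))
  obtain ⟨d, rfl⟩ := Subgroup.mem_zpowers_iff.1 hc.2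
  have hzp : ∀ x ∈ (P : Subgroup G) ⊓ T, x ∈ Subgroup.zpowers a →
      x ∈ Subgroup.zpowers (a ^ d) := fun x hx hxa => by
    obtain ⟨k, hk⟩ := hgen ⟨x, hx, hxa⟩
    exact ⟨k, congrArg Subtype.val hk⟩
  have hwinv : ∀ i : ℤ, a ^ i ∈ T → (a ^ j * b) * a ^ i * (a ^ j * b)⁻¹ = (a ^ i)⁻¹ := by
    intro i hi
    have h1 : b * a ^ i * b⁻¹ = (a ^ i)⁻¹ := by
      rw [hbconj]
      rcases hrel with h | ⟨-, h⟩
      · rw [h, inv_zpow]
      · rcases haT i hi with ⟨r, rfl⟩ | h'
        · rw [h, ((Commute.refl a).inv_left.pow_right _).mul_zpow, inv_zpow, ← two_mul,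
            zpow_mul z, zpow_ofNat, hz2, one_zpow, mul_one]
        · rw [h', inv_zpow]
    calc a ^ j * b * a ^ i * (a ^ j * b)⁻¹ = a ^ j * (b * a ^ i * b⁻¹) * a ^ (-j) := by group
      _ = (a ^ i)⁻¹ := by rw [h1]; group
  have hc1 : a ^ d ≠ 1 := by
    intro h
    obtain ⟨w', hw', hw'o, hw'n⟩ :=
      exists_involution_not_mem T hT S hS (Subgroup.zpowers (a ^ j * b))
    apply hw'n
    obtain ⟨i, rfl | rfl⟩ := hdec w' hw'.1
    · exfalso
      obtain ⟨k, hk⟩ := hzp _ hw' ⟨i, rfl⟩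
      dsimp only at hk
      rw [show (a ^ d) ^ k = 1 by rw [h, one_zpow]] at hk
      rw [← hk, orderOf_one] at hw'o
      omega
    · have hdiff : a ^ i * b * (a ^ j * b) ∈ (P : Subgroup G) ⊓ T := mul_mem hw' hwQ
      have hA' : a ^ i * b * (a ^ j * b) ∈ Subgroup.zpowers a := by
        rcases hrel with h' | ⟨-, h'⟩
        all_goals
          rw [show a ^ i * b * (a ^ j * b) = a ^ i * (b * a ^ j * b⁻¹) * (b * b) by group,
            hbconj, h', show b * b = 1 by rw [← pow_two]; exact hb ▸ pow_orderOf_eq_one b, mul_one]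
        · exact mul_mem (zpow_mem (Subgroup.mem_zpowers a) _)
            (zpow_mem (inv_mem (Subgroup.mem_zpowers a)) _)
        · exact mul_mem (zpow_mem (Subgroup.mem_zpowers a) _)
            (zpow_mem (mul_mem (inv_mem (Subgroup.mem_zpowers a))
              (pow_mem (Subgroup.mem_zpowers a) _)) _)
      obtain ⟨k, hk⟩ := hzp _ hdiff hA'
      dsimp only at hk
      rw [show (a ^ d) ^ k = 1 by rw [h, one_zpow]] at hk
      refine ⟨-1, ?_⟩
      show (a ^ j * b) ^ (-1 : ℤ) = a ^ i * b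
      rw [zpow_neg_one, eq_inv_of_mul_eq_one_left hk.symm]
  have hd : Nonempty (↥((P : Subgroup G) ⊓ T) ≃* DihedralGroup (orderOf (a ^ d))) := by
    refine dihedral_of_inverted hc.1 hwQ hwo (fun h => hwA ?_) (hwinv d hc.1.2) ?_ hc1
    · exact Subgroup.zpowers_le.2 (zpow_mem (Subgroup.mem_zpowers a) d) h
    intro x hx
    obtain ⟨i, rfl | rfl⟩ := hdec x hx.1
    · exact Or.inl (hzp _ hx ⟨i, rfl⟩)
    · right
      have hdiff : a ^ j * b * (a ^ i * b) ∈ (P : Subgroup G) ⊓ T := mul_mem hwQ hx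
      apply hzp _ hdiff
      rw [show a ^ j * b * (a ^ i * b) = a ^ j * (b * a ^ i * b⁻¹) * (b * b) by group, hbconj,
        show b * b = 1 by rw [← pow_two]; exact hb ▸ pow_orderOf_eq_one b, mul_one]
      rcases hrel with h' | ⟨-, h'⟩
      · rw [h']
        exact mul_mem (zpow_mem (Subgroup.mem_zpowers a) _)
          (zpow_mem (inv_mem (Subgroup.mem_zpowers a)) _)
      · rw [h']
        exact mul_mem (zpow_mem (Subgroup.mem_zpowers a) _)
          (zpow_mem (mul_mem (inv_mem (Subgroup.mem_zpowers a))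
            (pow_mem (Subgroup.mem_zpowers a) _)) _)
  obtain ⟨e⟩ := hd
  refine ⟨S, orderOf (a ^ d), ?_, ⟨(MulEquiv.subgroupCongr hS).trans
    ((Subgroup.subgroupOfEquivOfLe inf_le_right).trans e)⟩⟩
  have h0 := orderOf_pos (a ^ d)
  have h1 := mt orderOf_eq_one_iff.1 hc1
  omega

/-- A semiregular involution is an odd permutation if the degree is twice an odd number. -/
theorem sign_semiregular [Fintype Ω] [DecidableEq Ω] {a : G} (ha : orderOf a = 2)
    (hsemi : Semiregular Ω a) (hnd : ¬ 4 ∣ Nat.card Ω) :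
    Equiv.Perm.sign (MulAction.toPermHom G Ω a) = -1 := by
  set σ := MulAction.toPermHom G Ω a with hσ
  have hσ1 : σ ^ 2 = 1 := by
    rw [hσ, ← map_pow, show a ^ 2 = 1 from ha ▸ pow_orderOf_eq_one a, map_one]
  have hsupp : σ.support = Finset.univ := by
    ext γ
    simp only [Equiv.Perm.mem_support, Finset.mem_univ, iff_true]
    intro h
    have := hsemi 1 γ (by rw [zpow_one]; exact h)
    rw [zpow_one] at this
    rw [this, orderOf_one] at ha
    omega
  by_cases hΩ : IsEmpty Ω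
  · exact absurd (by rw [Nat.card_of_isEmpty]; exact dvd_zero 4) hnd
  rw [not_isEmpty_iff] at hΩ
  have hne : σ ≠ 1 := by
    intro h
    have hm : hΩ.some ∈ σ.support := hsupp ▸ Finset.mem_univ _
    rw [h, Equiv.Perm.support_one] at hm
    exact Finset.notMem_empty _ hm
  have hord : orderOf σ = 2 := orderOf_eq_prime hσ1 hne
  obtain ⟨k, hk⟩ := Equiv.Perm.cycleType_prime_order (σ := σ) (hord ▸ Nat.prime_two)
  rw [Equiv.Perm.sign_of_cycleType, hk, hord, Multiset.sum_replicate, Multiset.card_replicate,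
    smul_eq_mul]
  have hn : Nat.card Ω = (k + 1) * 2 := by
    rw [Nat.card_eq_fintype_card, ← Finset.card_univ, ← hsupp, ← Equiv.Perm.sum_cycleType, hk,
      hord, Multiset.sum_replicate, smul_eq_mul]
  have hko : Odd (k + 1) := by
    rcases Nat.even_or_odd (k + 1) with ⟨r, hr⟩ | h
    · exact absurd (by rw [hn, hr]; exact ⟨r, by ring⟩) hnd
    · exact h
  exact Odd.neg_one_pow (Even.add_odd ⟨k + 1, by ring⟩ hko)

/-- The socle has dihedral Sylow 2-subgroups, case `s = 1`. -/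
theorem hasDihedralSylow_one (h2 : IsMultiplyPretransitive G Ω 2) (hZ : ZStab G Ω)
    (T : Subgroup G) [T.Normal] [IsSimpleGroup T] (hT : ¬ IsMulCommutative T) {a0 : G}
    (ha0 : orderOf a0 = 2) (hsemi0 : Semiregular Ω a0)
    (hnd : ¬ 4 ∣ Nat.card Ω) (α : Ω) : GW.HasDihedralSylow T := by
  classical
  haveI : Fact (Nat.Prime 2) := ⟨Nat.prime_two⟩
  haveI : Fintype Ω := Fintype.ofFinite Ω
  haveI : IsPretransitive G Ω := isPretransitive_of_is_two_pretransitive (h2 := h2)
  obtain ⟨P, S, hS⟩ := exists_sylow_inter T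
  -- a point whose stabiliser in `P` is a Sylow subgroup of its stabiliser
  obtain ⟨R⟩ : Nonempty (Sylow 2 (stabilizer G α)) := inferInstance
  obtain ⟨P1, hP1⟩ := (R.isPGroup'.map (stabilizer G α).subtype).exists_le_sylow
  obtain ⟨g1, hg1⟩ := MulAction.exists_smul_eq G P1 P
  set β : Ω := g1 • α with hβ
  obtain ⟨P0, hP0⟩ := (IsPGroup.of_card (n := 1) (by rw [Nat.card_zpowers, ha0, pow_one]) :
    IsPGroup 2 (Subgroup.zpowers a0)).exists_le_sylow
  obtain ⟨g0, hg0⟩ := MulAction.exists_smul_eq G P0 P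
  set a : G := g0 * a0 * g0⁻¹ with ha'
  have haP : a ∈ (P : Subgroup G) := by
    rw [← hg0]
    exact ⟨a0, hP0 (Subgroup.mem_zpowers a0), rfl⟩
  have ha : orderOf a = 2 ^ 1 := by
    rw [ha', show g0 * a0 * g0⁻¹ = MulAut.conj g0 a0 from rfl, MulEquiv.orderOf_eq, ha0, pow_one]
  have hsemi : Semiregular Ω a := hsemi0.conj g0
  have hcard : Nat.card (P : Subgroup G) ≤
      2 ^ 1 * Nat.card ↥((P : Subgroup G) ⊓ stabilizer G β) := by
    refine (card_le_of_index_bound (P := P) (s := 1) (by rwa [show (2 : ℕ) ^ (1 + 1) = 4 by norm_num]) α).trans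
      (Nat.mul_le_mul_left _ ?_)
    rw [← R.card_eq_multiplicity,
      ← Subgroup.card_map_of_injective (K := (R : Subgroup (stabilizer G α)))
        (stabilizer G α).subtype_injective]
    refine le_trans (le_of_eq (Subgroup.card_map_of_injective
      (K := (R : Subgroup (stabilizer G α)).map (stabilizer G α).subtype)
      (f := (MulAut.conj g1).toMonoidHom) (MulAut.conj g1).injective).symm)
      (Subgroup.card_le_of_le ?_)
    rintro _ ⟨y, hy, rfl⟩
    refine ⟨?_, ?_⟩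
    · rw [← hg1]
      exact ⟨y, hP1 hy, rfl⟩
    · obtain ⟨y', -, rfl⟩ := hy
      show (g1 * (y' : G) * g1⁻¹) • β = β
      rw [hβ, mul_smul, mul_smul, inv_smul_smul, mem_stabilizer_iff.1 y'.2]
  set Y : Subgroup G := (P : Subgroup G) ⊓ stabilizer G β with hY
  haveI hYc : IsCyclic Y := hZ.isCyclic P.isPGroup' β
  have ha2 : a * a = 1 := by rw [← pow_two]; exact (pow_one 2 ▸ ha) ▸ pow_orderOf_eq_one a
  have hdec : ∀ x ∈ (P : Subgroup G), x ∈ Y ∨ a * x ∈ Y := by
    intro x hx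
    obtain ⟨i, v, hv, rfl⟩ := decomposition ha hsemi haP hcard hx
    have ha2' : a ^ (2 : ℤ) = 1 := by rw [zpow_two]; exact ha2
    rcases Int.even_or_odd i with ⟨r, rfl⟩ | ⟨r, rfl⟩
    · left
      rwa [← two_mul, zpow_mul, ha2', one_zpow, one_mul]
    · right
      rwa [zpow_add_one, zpow_mul, ha2', one_zpow, one_mul, ← mul_assoc, ha2, one_mul]
  -- `T` consists of even permutations
  have haT : a ∉ T := by
    intro h
    let χ : T →* ℤˣ := Equiv.Perm.sign.comp ((MulAction.toPermHom G Ω).comp T.subtype)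
    rcases (inferInstance : χ.ker.Normal).eq_bot_or_eq_top with hk | hk
    · apply hT
      refine ⟨⟨fun x y => ?_⟩⟩
      apply (MonoidHom.ker_eq_bot_iff χ).1 hk
      rw [map_mul, map_mul, mul_comm]
    · have h1 : χ ⟨a, h⟩ = 1 := MonoidHom.mem_ker.1 (hk ▸ Subgroup.mem_top _)
      have h2' := sign_semiregular (Ω := Ω) (pow_one 2 ▸ ha) hsemi hnd
      rw [show χ ⟨a, h⟩ = Equiv.Perm.sign (MulAction.toPermHom G Ω a) from rfl, h2'] at h1
      exact absurd h1 (by decide)
  obtain ⟨w, hwQ, hwo, hwY⟩ := exists_involution_not_mem T hT S hS Y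
  have hw2 : w * w = 1 := by rw [← pow_two]; exact hwo ▸ pow_orderOf_eq_one w
  have hawY : a * w ∈ Y := (hdec w hwQ.1).resolve_left hwY
  have hwx : ∀ x ∈ (P : Subgroup G), x ∈ Y ∨ w * x ∈ Y := by
    intro x hx
    rcases hdec x hx with h | h
    · exact Or.inl h
    · right
      rw [show w * x = (a * w)⁻¹⁻¹⁻¹ * (a * x) by
        simp only [inv_inv, mul_inv_rev, inv_eq_of_mul_eq_one_right hw2,
          inv_eq_of_mul_eq_one_right ha2, mul_assoc]
        rw [← mul_assoc a a x, ha2, one_mul]]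
      exact mul_mem (by rw [inv_inv]; exact inv_mem hawY) h
  have hwxr : ∀ x ∈ (P : Subgroup G), x ∈ Y ∨ x * w ∈ Y := by
    intro x hx
    rcases hwx x⁻¹ (inv_mem hx) with h | h
    · exact Or.inl (inv_mem_iff.1 h)
    · right
      have := inv_mem h
      rwa [mul_inv_rev, inv_inv, inv_eq_of_mul_eq_one_right hw2] at this
  haveI : IsCyclic ↥(((P : Subgroup G) ⊓ T) ⊓ Y) := Subgroup.isCyclic_of_le inf_le_right
  obtain ⟨⟨c, hc⟩, hgen⟩ := IsCyclic.exists_generator (α := ↥(((P : Subgroup G) ⊓ T) ⊓ Y))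
  obtain ⟨⟨y, hy⟩, hygen⟩ := IsCyclic.exists_generator (α := ↥Y)
  have hzc : ∀ x ∈ (P : Subgroup G) ⊓ T, x ∈ Y → x ∈ Subgroup.zpowers c := fun x hx hxY => by
    obtain ⟨k, hk⟩ := hgen ⟨x, hx, hxY⟩
    exact ⟨k, congrArg Subtype.val hk⟩
  have hzy : ∀ x ∈ Y, x ∈ Subgroup.zpowers y := fun x hx => by
    obtain ⟨k, hk⟩ := hygen ⟨x, hx⟩
    exact ⟨k, congrArg Subtype.val hk⟩
  obtain ⟨l, hl⟩ := Subgroup.mem_zpowers_iff.1 (hzy c hc.2)
  have hc1 : c ≠ 1 := by
    intro h
    obtain ⟨w', hw', hw'o, hw'n⟩ := exists_involution_not_mem T hT S hS (Subgroup.zpowers w)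
    apply hw'n
    rcases hwx w' hw'.1 with h' | h'
    · exfalso
      obtain ⟨k, hk⟩ := hzc w' hw' h'
      dsimp only at hk
      rw [show c ^ k = 1 by rw [h, one_zpow]] at hk
      rw [← hk, orderOf_one] at hw'o
      omega
    · obtain ⟨k, hk⟩ := hzc (w * w') (mul_mem hwQ hw') h'
      dsimp only at hk
      rw [show c ^ k = 1 by rw [h, one_zpow]] at hk
      refine ⟨-1, ?_⟩
      show w ^ (-1 : ℤ) = w'
      rw [zpow_neg_one, inv_eq_of_mul_eq_one_right hk.symm]
  -- the action of `w` on the cyclic part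
  have hyN : w * y * w⁻¹ ∈ Subgroup.zpowers y := by
    apply hzy
    by_contra h
    rcases hwx _ (mul_mem (mul_mem hwQ.1 hy.1) (inv_mem hwQ.1)) with h' | h'
    · exact h h'
    · apply hwY
      rw [show w * (w * y * w⁻¹) = (w * w) * (y * w⁻¹) by group, hw2, one_mul] at h'
      exact inv_mem_iff.1 ((mul_mem_cancel_left hy).1 h')
  have hcases : w * c * w⁻¹ = c⁻¹ ∨ (w * c * w⁻¹ = c ∧ c * c ≠ 1) := by
    rcases eq_or_ne (c * c) 1 with hcc | hcc
    · left
      have hy' : w * c * w⁻¹ ∈ Subgroup.zpowers y := by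
        rw [← hl, ← conj_zpow]
        exact zpow_mem hyN l
      have hYy : w * c * w⁻¹ ∈ Y := Subgroup.zpowers_le.2 hy hy'
      have h1 := eq_of_commute_of_isZGroup (H := Y) inferInstance hYy hc.2 (by
          rw [show w * c * w⁻¹ = MulAut.conj w c from rfl, MulEquiv.orderOf_eq]
          exact orderOf_eq_prime (by rw [pow_two]; exact hcc) hc1)
        (orderOf_eq_prime (by rw [pow_two]; exact hcc) hc1) (commute_of_isCyclic hYy hc.2)
      rw [h1, inv_eq_of_mul_eq_one_right hcc]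
    · -- `c` is an even power of `y`
      have hle : Even l := by
        rcases Int.even_or_odd l with h | h
        · exact h
        exfalso
        apply haT
        obtain ⟨r, hr⟩ := IsPGroup.iff_orderOf.1 P.isPGroup' ⟨y, hy.1⟩
        rw [Subgroup.orderOf_mk] at hr
        obtain ⟨q, rfl⟩ := h
        have hcop : IsCoprime (2 * q + 1) ((2 : ℤ) ^ r) := IsCoprime.pow_right ⟨1, -q, by ring⟩
        obtain ⟨u, v, huv⟩ := hcop
        have h4 : y = c ^ u := by
          rw [← hl]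
          conv_lhs => rw [← zpow_one y, ← huv]
          rw [zpow_add, mul_comm u, zpow_mul, mul_comm v, zpow_mul,
            show y ^ ((2 : ℤ) ^ r) = 1 from by
              rw [show ((2 : ℤ) ^ r) = ((2 ^ r : ℕ) : ℤ) by push_cast; rfl, zpow_natCast, ← hr,
                pow_orderOf_eq_one], one_zpow, mul_one]
        have hyT : y ∈ T := by rw [h4]; exact zpow_mem (show c ∈ T from hc.1.2) u
        have hawT : a * w ∈ T := Subgroup.zpowers_le.2 hyT (hzy _ hawY)
        have := mul_mem hawT hwQ.2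
        rwa [mul_assoc, hw2, mul_one] at this
      obtain ⟨q, rfl⟩ := hle
      obtain ⟨r, hr⟩ := IsPGroup.iff_orderOf.1 P.isPGroup' ⟨y, hy.1⟩
      rw [Subgroup.orderOf_mk] at hr
      have hr2 : 2 ≤ r := by
        by_contra hlt
        apply hcc
        have h1 : y ^ 2 = 1 := orderOf_dvd_iff_pow_eq_one.1 (by
          rw [hr]
          calc 2 ^ r ∣ 2 ^ 1 := pow_dvd_pow 2 (by omega)
            _ = 2 := pow_one 2)
        have h2' : y ^ (2 : ℤ) = 1 := by exact_mod_cast h1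
        rw [← hl, ← zpow_add, ← two_mul, zpow_mul, h2', one_zpow]
      have hsq : w * (w * y * w⁻¹) * w⁻¹ = y := by
        rw [show w * (w * y * w⁻¹) * w⁻¹ = (w * w) * y * (w * w)⁻¹ by group, hw2]
        group
      set e : G := y ^ 2 ^ (r - 1) with he
      have he2 : e ^ 2 = 1 := by
        have h := pow_orderOf_eq_one e
        rwa [he, orderOf_half (by omega) hr, ← he] at h
      have hcq : c = (y ^ 2) ^ q := by
        rw [← hl, ← zpow_natCast, ← zpow_mul, ← two_mul]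
        norm_num
      have hconj : w * c * w⁻¹ = ((w * y * w⁻¹) ^ 2) ^ q := by rw [hcq, conj_pow, conj_zpow]
      have hce : ∀ u : G, Commute u e → (u * e) ^ 2 = u ^ 2 := fun u hu => by
        rw [hu.mul_pow, he2, mul_one]
      rcases conj_cases hr2 hr hyN hsq with h | h | h | h
      · exact Or.inr ⟨by rw [hconj, h, ← hcq], hcc⟩
      · exact Or.inr ⟨by rw [hconj, h, hce _ ((Commute.refl y).pow_right _), ← hcq], hcc⟩
      · left
        rw [hconj, h, inv_pow, inv_zpow, ← hcq]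
      · left
        rw [hconj, h, hce _ ((Commute.refl y).inv_left.pow_right _), inv_pow, inv_zpow, ← hcq]
  rcases hcases with hinv | ⟨hcomm, hcc⟩
  · obtain ⟨e⟩ := dihedral_of_inverted hc.1 hwQ hwo
      (fun h => hwY (Subgroup.zpowers_le.2 hc.2 h)) hinv
      (fun x hx => (hwx x hx.1).imp (hzc x hx) (hzc _ (mul_mem hwQ hx))) hc1
    refine ⟨S, orderOf c, ?_, ⟨(MulEquiv.subgroupCongr hS).trans
      ((Subgroup.subgroupOfEquivOfLe inf_le_right).trans e)⟩⟩
    have h0 := orderOf_pos c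
    have h1 := mt orderOf_eq_one_iff.1 hc1
    omega
  -- the abelian case is impossible
  exfalso
  obtain ⟨g, hgT, hgY, hgQ⟩ :=
    exists_conj_mem T hT S hS Y hwQ hwo hwY (fun x hx => hwxr x hx.1)
  have hcw : Commute w c := mul_inv_eq_iff_eq_mul.1 hcomm
  have habel : ∀ x ∈ (S : Subgroup T), ∀ y' ∈ (S : Subgroup T), x * y' = y' * x := by
    have hform : ∀ x ∈ (P : Subgroup G) ⊓ T, ∃ i : ℤ, x = c ^ i ∨ x = w * c ^ i := by
      intro x hx
      rcases hwx x hx.1 with h | h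
      · obtain ⟨i, hi⟩ := hzc x hx h
        exact ⟨i, Or.inl hi.symm⟩
      · obtain ⟨i, hi⟩ := hzc _ (mul_mem hwQ hx) h
        refine ⟨i, Or.inr ?_⟩
        rw [show w * c ^ i = w * (w * x) from congrArg (w * ·) hi, ← mul_assoc, hw2, one_mul]
    have hcc' : ∀ i : ℤ, Commute w (c ^ i) := fun i => hcw.zpow_right i
    have hcomm' : ∀ x ∈ (P : Subgroup G) ⊓ T, ∀ x' ∈ (P : Subgroup G) ⊓ T, Commute x x' := by
      intro x hx x' hx'
      obtain ⟨i, rfl | rfl⟩ := hform x hx <;> obtain ⟨k, rfl | rfl⟩ := hform x' hx'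
      · exact (Commute.refl c).zpow_zpow i k
      · exact (hcc' i).symm.mul_right ((Commute.refl c).zpow_zpow i k)
      · exact (hcc' k).mul_left ((Commute.refl c).zpow_zpow i k)
      · exact ((Commute.refl w).mul_right (hcc' k)).mul_left
          ((hcc' i).symm.mul_right ((Commute.refl c).zpow_zpow i k))
    intro x hx y' hy'
    rw [hS] at hx hy'
    exact Subtype.ext (hcomm' _ hx _ hy').eq
  haveI : IsMulCommutative (S : Subgroup T) :=
    ⟨⟨fun x y' => Subtype.ext (habel _ x.2 _ y'.2)⟩⟩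
  let wT : T := ⟨w, hwQ.2⟩
  let gT : T := ⟨g, hgT⟩
  obtain ⟨n, hn, hne⟩ := S.conj_eq_normalizer_conj_of_mem wT gT⁻¹
    (show wT ∈ (S : Subgroup T) by rw [hS]; exact hwQ)
    (show gT⁻¹⁻¹ * wT * gT⁻¹ ∈ (S : Subgroup T) by rw [hS, inv_inv]; exact hgQ)
  rw [inv_inv] at hne
  -- the involution of `c` is a square
  obtain ⟨k, hk⟩ := IsPGroup.iff_orderOf.1 P.isPGroup' ⟨c, hc.1.1⟩
  rw [Subgroup.orderOf_mk] at hk
  have hk2 : 2 ≤ k := by
    by_contra hlt
    apply hcc
    rw [← pow_two]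
    exact orderOf_dvd_iff_pow_eq_one.1 (by
      rw [hk]
      calc 2 ^ k ∣ 2 ^ 1 := pow_dvd_pow 2 (by omega)
        _ = 2 := pow_one 2)
  have hb : g * w * g⁻¹ = c ^ 2 ^ (k - 1) :=
    eq_of_commute_of_isZGroup (H := Y) inferInstance hgY (pow_mem hc.2 _)
      (by rw [show g * w * g⁻¹ = MulAut.conj g w from rfl, MulEquiv.orderOf_eq, hwo])
      (orderOf_half (by omega) hk) (commute_of_isCyclic hgY (pow_mem hc.2 _))
  set x : G := c ^ 2 ^ (k - 2) with hxdef
  have hxT : x ∈ T := pow_mem hc.1.2 _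
  have hxx : x * x = g * w * g⁻¹ := by
    rw [hb, hxdef, ← pow_add, ← two_mul, ← pow_succ']
    congr 2
    omega
  let xT : T := ⟨x, hxT⟩
  have hxS : xT ∈ (S : Subgroup T) := by rw [hS]; exact ⟨pow_mem hc.1.1 _, hxT⟩
  have hyS : n * xT * n⁻¹ ∈ (S : Subgroup T) := (Subgroup.mem_normalizer_iff.1 hn xT).1 hxS
  rw [hS] at hyS
  set y2 : G := ((n * xT * n⁻¹ : T) : G) with hy2
  have hyy : w = y2 * y2 := by
    have h1 : ((gT * wT * gT⁻¹ : T) : G) = ((n⁻¹ * wT * n : T) : G) := congrArg Subtype.val hne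
    have h2' : x * x = (n : G)⁻¹ * w * (n : G) := hxx.trans h1
    calc w = (n : G) * ((n : G)⁻¹ * w * (n : G)) * (n : G)⁻¹ := by group
      _ = (n : G) * (x * x) * (n : G)⁻¹ := by rw [h2']
      _ = y2 * y2 := by
        rw [hy2]
        simp only [Subgroup.coe_mul, InvMemClass.coe_inv, xT]
        group
  apply hwY
  have hyP : y2 ∈ (P : Subgroup G) := hyS.1
  rw [hyy]
  rcases hwxr y2 hyP with h | h
  · exact mul_mem h h
  · have hwy : Commute y2 w := by rw [hyy]; exact (Commute.refl y2).mul_right (Commute.refl y2)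
    have := mul_mem h h
    rwa [hwy.symm.mul_mul_mul_comm y2 w, hw2, mul_one] at this

end CfsgLib.ZFact
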